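import Cfsg.Agent.H15.J3.Simple
import Cfsg.Agent.H20.JThreeFusion.Data

/-!
Kernel checks for the Sylow 2-subgroup and the involution centraliser of `3·J₃`.

All elements are packed matrices; equality is exact, not modulo scalars.
-/

set_option autoImplicit false

namespace Cfsg.Agent.H20.JThreeFusion

open Cfsg.Agent.H15.J3 Cfsg.Agent.H16

/-- Evaluation of a word over a table, for the kernel. -/
noncomputable def evF (gs : List (List ℕ)) : List ℕ → List ℕ :=
  List.rec (motive := fun _ => List ℕ) idM (fun j _ ih => mmF (gs.getD j []) ih)

theorem ev_length (gs : List (List ℕ)) : ∀ w : List ℕ, (ev gs w).length = 9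
  | [] => rfl
  | _ :: _ => mm_length _ _

theorem evF_eq {gs : List (List ℕ)} {n : ℕ} (hgs : ∀ j < n, (gs.getD j []).length = 9) :
    ∀ {w : List ℕ}, small n w = true → evF gs w = ev gs w
  | [], _ => rfl
  | j :: w, h => by
    simp only [small, List.all_cons, Bool.and_eq_true, decide_eq_true_eq] at h
    show mmF (gs.getD j []) (evF gs w) = mm (gs.getD j []) (ev gs w)
    rw [evF_eq hgs (w := w) (by simp only [small]; exact h.2),
      mmF_eq (hgs j h.1) (ev_length gs w)]

/-- The seven generators and their inverses. -/
def tbl : List (List ℕ) := Cfsg.Agent.H15.J3.Data.gen7 ++ Cfsg.Agent.H15.J3.Data.gen7Inv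

/-- The inverse of a word in the seven generators. -/
def invW (w : List ℕ) : List ℕ := w.reverse.map (· + 7)

/-- The word of the conjugate of the involution by `w`. -/
def conjW (w : List ℕ) : List ℕ := invW w ++ Data.tW ++ w

/-- The conjugating words. -/
def gwd (j : ℕ) : List ℕ := Data.gW.getD j []

/-- The eight involutions. -/
def gmat (j : ℕ) : List ℕ := Data.gM.getD j []

/-- An element of the Sylow subgroup. -/
def smat (i : ℕ) : List ℕ := Data.sM.getD i []

/-- Its word in the first seven involutions. -/
def swd (i : ℕ) : List ℕ := Data.sW.getD i []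

/-- A scalar. -/
noncomputable def scal (e : ℕ) : List ℕ := evF tbl (List.replicate e 3)

/-- The involution: word, matrix, order two. -/
noncomputable def tOK : Bool :=
  small 7 Data.tW && natListEq (evF tbl Data.tW) Data.tM &&
    natListEq (mmF Data.tM Data.tM) idM && !(natListEq Data.tM idM)

/-- The eight involutions are the given conjugates and commute with the involution. -/
noncomputable def gensOK : Bool :=
  (List.range 8).all fun j =>
    small 7 (gwd j) && natListEq (evF tbl (conjW (gwd j))) (gmat j) &&
      natListEq (mmF (gmat j) Data.tM) (mmF Data.tM (gmat j))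

/-- The table of the Sylow subgroup. -/
noncomputable def sylOK : Bool :=
  natListEq (smat Data.oneIdx) idM && Nat.blt Data.oneIdx 128 &&
  natListEq (smat Data.tIdx) Data.tM && Nat.blt Data.tIdx 128 &&
  ((List.range 128).all fun i => (small 7 (swd i) && natListEq (evF Data.gM (swd i)) (smat i)) &&
    (List.range 7).all fun j =>
      Nat.blt ((Data.sNext.getD i []).getD j 0) 128 &&
        natListEq (mmF (smat i) (gmat j)) (smat ((Data.sNext.getD i []).getD j 0))) &&
  ((List.range 128).all fun i => (smat i).all fun c => Nat.blt c 262144) &&
  (List.range 127).all fun i => Nat.blt (key (smat i)) (key (smat (i + 1)))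

/-- The centre of the Sylow subgroup. -/
noncomputable def centerOK : Bool :=
  (List.range 128).all fun i => Nat.beq i Data.oneIdx || Nat.beq i Data.tIdx ||
    (List.range 7).any fun j => !(natListEq (mmF (smat i) (gmat j)) (mmF (gmat j) (smat i)))

/-- The indices of the radical subgroup. -/
def radList : List ℕ := Data.radElts.map Prod.fst

/-- The radical subgroup. -/
noncomputable def radOK : Bool :=
  (Data.radElts.all fun a => Nat.blt a.1 128 && small 5 a.2 &&
    natListEq (evF Data.gM a.2) (smat a.1)) &&
  radList.contains Data.tIdx &&
  ((List.range 8).all fun c => (List.range 5).all fun k =>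
    radList.contains ((Data.radConj.getD c []).getD k 0) &&
      natListEq (mmF (gmat c) (gmat k))
        (mmF (smat ((Data.radConj.getD c []).getD k 0)) (gmat c))) &&
  (List.range 128).all fun i => radList.contains i ||
    (List.range 5).any fun k => !(natListEq (mmF (smat i) (gmat k)) (mmF (gmat k) (smat i)))

/-- A word whose `n`-th power is a scalar, and which is not a scalar. -/
noncomputable def powOK (n : ℕ) (a : List ℕ × ℕ) : Bool :=
  small 8 a.1 && Nat.blt a.2 3 &&
    natListEq (evF Data.gM (List.replicate n a.1).flatten) (scal a.2) &&
    (evF Data.gM a.1).all (fun c => Nat.blt c 262144) &&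
    (List.range 3).all fun e =>
      !(natListEq (evF Data.gM a.1) (scal e)) && (scal e).all fun c => Nat.blt c 262144

/-- An image of a basis vector, and its span. -/
noncomputable def spanStep (c : ℕ) (L : List ℕ) : List ℕ :=
  Bool.rec (forceNat (mwF c) fun d => L.flatMap fun x =>
      [x, Nat.xor x c, Nat.xor x d, Nat.xor (Nat.xor x c) d]) L (Nat.beq c 0)

/-- The span of the first `n` columns. -/
noncomputable def spanN (M : List ℕ) : ℕ → List ℕ
  | 0 => [0]
  | n + 1 => spanStep (M.getD n 0) (spanN M n)

/-- The involution minus one. -/
noncomputable def nMat : List ℕ := List.zipWith Nat.xor Data.tM idM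

/-- The identity is `B C + D (t + 1)`, and the isotropic lines in the span of `B` are listed. -/
noncomputable def fixOK : Bool :=
  natListEq (List.zipWith Nat.xor (mmF Data.fixB Data.fixC) (mmF Data.fixD nMat)) idM &&
  Nat.beq Data.fixLines.length 136 &&
  (spanN Data.fixB 9).all fun x => forceNat (normF x) fun v =>
    Nat.beq v 0 || !(Nat.beq (elab3 (entry v)) 1) || Data.fixLines.contains v

/-- The conjugating word of a stabiliser involution. -/
noncomputable def kOKAt (a : ℕ × List ℕ) : Bool :=
  Nat.blt a.1 6480 && small 7 a.2 && natListEq (evF tbl (conjW a.2)) (kCodeF a.1) &&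
    (kCodeF a.1).all fun c => Nat.blt c 262144

/-- The involutions of the line stabiliser. -/
noncomputable def kInvOK : Bool :=
  Data.kInv.all kOKAt && Nat.beq Data.kInv.length 153 &&
  (List.range 152).all fun i =>
    Nat.blt ((Data.kInv.getD i (0, [])).1) ((Data.kInv.getD (i + 1) (0, [])).1)

theorem t_ok : tOK = true := by decide +kernel
theorem gens_ok : gensOK = true := by decide +kernel
theorem syl_ok : sylOK = true := by decide +kernel
theorem center_ok : centerOK = true := by decide +kernel
theorem rad_ok : radOK = true := by decide +kernel
theorem three_ok : powOK 3 Data.aThree = true := by decide +kernel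
theorem five_ok : powOK 5 Data.aFive = true := by decide +kernel
theorem fix_ok : fixOK = true := by decide +kernel
theorem kInv_ok : kInvOK = true := by decide +kernel

theorem tbl_length : ∀ j < 14, (tbl.getD j []).length = 9 := by decide +kernel

theorem gM_length : ∀ j < 8, (Data.gM.getD j []).length = 9 := by decide +kernel

theorem sM_length : ∀ j < 128, (Data.sM.getD j []).length = 9 := by decide +kernel

theorem fix_length : Data.fixB.length = 9 ∧ Data.fixC.length = 9 ∧ Data.fixD.length = 9 ∧
    nMat.length = 9 ∧ Data.tM.length = 9 := by decide +kernel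

end Cfsg.Agent.H20.JThreeFusion
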