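import Cfsg.Agent.H20.JThreeFusion.Model
import Cfsg.Agent.H94.ConstrainedSetup
import Cfsg.Agent.H94.SimpleCriterion
import Cfsg.Agent.H24.PGroupBasic

/-!
The centraliser of an involution in `J₃` and the simplicity of its 2-fusion system.

With `t` the image of `tT`, the centraliser of `t` is generated by the images of the eight
involutions `gT j`, has order 1920 and normalises the image `R` of `radT`, which contains its
2-centraliser.  A strongly closed subgroup of the Sylow subgroup meets the centre in `t`, hence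
contains the seven generators, which are conjugates of `t`; an automorphism of the Sylow subgroup
fixes `t`, hence lies in the automiser part generated by 2-elements normalising `R`.
-/

set_option autoImplicit false
set_option linter.style.haveILetI false

namespace Cfsg.Agent.H20.JThreeFusion

open Cfsg Cfsg.Spor Cfsg.FusionSystem Cfsg.Agent Cfsg.Agent.H15.J3 Cfsg.Agent.H16 Matrix

theorem tM_bound : ∀ c ∈ Data.tM, c < 2 ^ 18 := by decide +kernel

variable {F : Type*} [Field F] [Fintype F] {ω : F}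

theorem finite_threeJ3 (hG : Good F ω) : Finite ↥(threeJ3 F ω) :=
  Nat.finite_of_card_ne_zero (by rw [card_threeJ3 hG]; norm_num)

theorem tT_ne_one (hG : Good F ω) : tT hG ≠ 1 := by
  have h := t_ok
  simp only [tOK, Bool.and_eq_true] at h
  exact ne_of_mat hG (mat_tT hG) (toMat_idM hG).symm fix_length.2.2.2.2 (by rfl) tM_bound
    (by decide +kernel) h.2

theorem eq_one_of_mem_center (hG : Good F ω) {z : ↥(threeJ3 F ω)}
    (hz : z ∈ Subgroup.center ↥(threeJ3 F ω)) (hS : z ∈ sylT hG) : z = 1 := by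
  have h1 : orderOf z ∣ 3 := (Subgroup.orderOf_dvd_natCard _ hz).trans (card_center hG).dvd
  have h2 : orderOf z ∣ 128 := (Subgroup.orderOf_dvd_natCard _ hS).trans (card_sylT hG).dvd
  exact orderOf_eq_one_iff.1 (Nat.dvd_one.1 (by simpa using Nat.dvd_gcd h1 h2))

variable {G : Type*} [Group G] (hG : Good F ω) (e : G ≃* J3 F ω)

/-- The map from the triple cover. -/
noncomputable def proj : ↥(threeJ3 F ω) →* G :=
  e.symm.toMonoidHom.comp (QuotientGroup.mk' (Subgroup.center ↥(threeJ3 F ω)))

theorem proj_surjective : Function.Surjective (proj e) :=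
  e.symm.surjective.comp (QuotientGroup.mk'_surjective _)

theorem proj_ker : (proj e).ker = Subgroup.center ↥(threeJ3 F ω) := by
  ext x
  rw [MonoidHom.mem_ker, proj, MonoidHom.comp_apply, MulEquiv.coe_toMonoidHom,
    EmbeddingLike.map_eq_one_iff, QuotientGroup.mk'_apply, QuotientGroup.eq_one_iff]

theorem proj_eq_one {x : ↥(threeJ3 F ω)} :
    proj e x = 1 ↔ x ∈ Subgroup.center ↥(threeJ3 F ω) := by
  rw [← MonoidHom.mem_ker, proj_ker]

include hG

theorem proj_inj_syl {x y : ↥(threeJ3 F ω)} (hx : x ∈ sylT hG) (hy : y ∈ sylT hG)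
    (h : proj e x = proj e y) : x = y := by
  have hc : x * y⁻¹ ∈ Subgroup.center ↥(threeJ3 F ω) := by
    rw [← proj_eq_one e, map_mul, map_inv, h, mul_inv_cancel]
  exact mul_inv_eq_one.1 (eq_one_of_mem_center hG hc (mul_mem hx (inv_mem hy)))

/-- The involution. -/
noncomputable def tB : G := proj e (tT hG)

/-- The Sylow subgroup. -/
noncomputable def sylB : Subgroup G := (sylT hG).map (proj e)

/-- The radical subgroup. -/
noncomputable def radB : Subgroup G := (radT hG).map (proj e)

/-- The centraliser of the involution, by generators. -/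
noncomputable def centB : Subgroup G :=
  Subgroup.closure (Set.range fun j : Fin 8 => proj e (gT hG j))

theorem card_sylB : Nat.card ↥(sylB hG e) = 128 := by
  rw [← card_sylT hG]
  refine (Nat.card_eq_of_bijective
    (fun x : ↥(sylT hG) => (⟨proj e x, x.1, x.2, rfl⟩ : ↥(sylB hG e))) ⟨fun x y h =>
      Subtype.ext (proj_inj_syl hG e x.2 y.2 (congrArg Subtype.val h)), ?_⟩).symm
  rintro ⟨_, x, hx, rfl⟩
  exact ⟨⟨x, hx⟩, rfl⟩

include e in
theorem card_G : Nat.card G = 50232960 := by rw [Nat.card_congr e.toEquiv, card_J3 hG]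

theorem sylB_index : (sylB hG e).index = 392445 := by
  have h := (sylB hG e).card_mul_index
  rw [card_sylB, card_G hG e] at h
  omega

theorem tB_ne_one : tB hG e ≠ 1 := fun h =>
  tT_ne_one hG (eq_one_of_mem_center hG ((proj_eq_one e).1 h) (tT_mem hG))

theorem tB_mem : tB hG e ∈ sylB hG e := ⟨_, tT_mem hG, rfl⟩

theorem center_cases_B {x : G} (hx : x ∈ sylB hG e) (hc : ∀ y ∈ sylB hG e, x * y = y * x) :
    x = 1 ∨ x = tB hG e := by
  obtain ⟨a, ha, rfl⟩ := hx
  have key : ∀ y ∈ sylT hG, a * y = y * a := fun y hy =>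
    proj_inj_syl hG e (mul_mem ha hy) (mul_mem hy ha)
      (by rw [map_mul, map_mul]; exact hc _ ⟨y, hy, rfl⟩)
  rcases center_cases hG ha key with rfl | rfl
  · exact Or.inl (map_one _)
  · exact Or.inr rfl

theorem centralizer_lift {y : ↥(threeJ3 F ω)} (h : proj e y * tB hG e = tB hG e * proj e y) :
    y * tT hG = tT hG * y := by
  set z := y * tT hG * y⁻¹ * (tT hG)⁻¹ with hz
  have hzc : z ∈ Subgroup.center ↥(threeJ3 F ω) := by
    rw [← proj_eq_one e, hz]
    simp only [map_mul, map_inv]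
    rw [show proj e y * proj e (tT hG) = proj e (tT hG) * proj e y from h]
    group
  have hconj : y * tT hG * y⁻¹ = z * tT hG := by rw [hz]; group
  have hz2 : z * z = 1 := by
    have h1 : (y * tT hG * y⁻¹) * (y * tT hG * y⁻¹) = 1 := by
      rw [show (y * tT hG * y⁻¹) * (y * tT hG * y⁻¹) = y * (tT hG * tT hG) * y⁻¹ by group,
        tT_sq hG]
      group
    rw [hconj] at h1
    calc z * z = z * (z * (tT hG * tT hG)) := by rw [tT_sq hG, mul_one]
      _ = z * (z * tT hG * tT hG) := by rw [mul_assoc z (tT hG)]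
      _ = z * (tT hG * z * tT hG) := by rw [Subgroup.mem_center_iff.1 hzc (tT hG)]
      _ = z * tT hG * (z * tT hG) := by simp only [mul_assoc]
      _ = 1 := h1
  have hz3 : z ^ 3 = 1 := by
    have := pow_card_eq_one' (x := (⟨z, hzc⟩ : Subgroup.center ↥(threeJ3 F ω)))
    rw [card_center hG] at this
    exact congrArg Subtype.val this
  have hz1 : z = 1 := by
    rw [pow_succ, pow_two, hz2, one_mul] at hz3
    exact hz3
  rw [hz1, one_mul] at hconj
  exact mul_inv_eq_iff_eq_mul.1 hconj

theorem centralizer_eq_map : Subgroup.centralizer ({tB hG e} : Set G) =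
    (Subgroup.centralizer ({tT hG} : Set ↥(threeJ3 F ω))).map (proj e) := by
  ext x
  refine ⟨fun hx => ?_, ?_⟩
  · obtain ⟨y, rfl⟩ := proj_surjective e x
    exact ⟨y, Subgroup.mem_centralizer_singleton_iff.2
      (centralizer_lift hG e (Subgroup.mem_centralizer_singleton_iff.1 hx)), rfl⟩
  · rintro ⟨y, hy, rfl⟩
    refine Subgroup.mem_centralizer_singleton_iff.2 ?_
    rw [tB, ← map_mul, ← map_mul, Subgroup.mem_centralizer_singleton_iff.1 hy]

theorem card_centralizer_B_le : Nat.card ↥(Subgroup.centralizer ({tB hG e} : Set G)) ≤ 1920 := by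
  haveI := finite_threeJ3 hG
  set C := Subgroup.centralizer ({tT hG} : Set ↥(threeJ3 F ω)) with hC
  rw [centralizer_eq_map, ← hC]
  have hle : Subgroup.center ↥(threeJ3 F ω) ≤ C := fun z hz =>
    Subgroup.mem_centralizer_singleton_iff.2 ((Subgroup.mem_center_iff.1 hz _).symm)
  let f := (proj e).comp C.subtype
  have hr : f.range = C.map (proj e) := by
    rw [MonoidHom.range_comp, Subgroup.range_subtype]
  have hk : Nat.card ↥f.ker = 3 := by
    have : f.ker = (Subgroup.center ↥(threeJ3 F ω)).subgroupOf C := by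
      rw [← proj_ker e]; rfl
    rw [this, Nat.card_congr (Subgroup.subgroupOfEquivOfLe hle).toEquiv, card_center hG]
  have h := f.ker.card_mul_index
  rw [hk, Subgroup.index_ker, hr] at h
  have h2 := card_centralizer_le hG
  rw [← hC] at h2
  omega

theorem sylB_eq : sylB hG e = Subgroup.closure (Set.range fun j : Fin 7 => proj e (gT hG j)) := by
  rw [sylB, sylT, MonoidHom.map_closure, ← Set.range_comp]
  rfl

theorem sylB_le_centB : sylB hG e ≤ centB hG e := by
  rw [sylB_eq, Subgroup.closure_le]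
  rintro _ ⟨j, rfl⟩
  exact Subgroup.subset_closure ⟨⟨j, by omega⟩, rfl⟩

theorem centB_le : centB hG e ≤ Subgroup.centralizer ({tB hG e} : Set G) := by
  rw [centB, Subgroup.closure_le]
  rintro _ ⟨j, rfl⟩
  refine Subgroup.mem_centralizer_singleton_iff.2 ?_
  rw [tB, ← map_mul, ← map_mul, (gens_spec hG j.2).2]

theorem dvd_card_centB {n : ℕ} (hn : n.Prime) {a : List ℕ × ℕ} (h : powOK n a = true) :
    n ∣ Nat.card ↥(centB hG e) := by
  haveI : Fact n.Prime := ⟨hn⟩
  obtain ⟨hs, hp, hne⟩ := pow_spec hG h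
  have hmem : proj e (elG hG a.1) ∈ centB hG e := by
    have := elG_mem hG (P := (centB hG e).comap (proj e)) (w := a.1) fun j hj =>
      Subgroup.subset_closure ⟨⟨j, hs j hj⟩, rfl⟩
    exact this
  rw [← orderOf_eq_prime (x := proj e (elG hG a.1)) (p := n)
    (by rw [← map_pow, proj_eq_one]; exact hp) (fun h' => hne ((proj_eq_one e).1 h'))]
  exact Subgroup.orderOf_dvd_natCard _ hmem

variable [Finite G]

theorem centB_eq : centB hG e = Subgroup.centralizer ({tB hG e} : Set G) := by
  refine Subgroup.eq_of_le_of_card_ge (centB_le hG e) ((card_centralizer_B_le hG e).trans ?_)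
  refine Nat.le_of_dvd Nat.card_pos ?_
  have h128 : 128 ∣ Nat.card ↥(centB hG e) :=
    card_sylB hG e ▸ Subgroup.card_dvd_of_le (sylB_le_centB hG e)
  have h3 := dvd_card_centB hG e Nat.prime_three three_ok
  have h5 := dvd_card_centB hG e Nat.prime_five five_ok
  rw [show (1920 : ℕ) = 128 * 3 * 5 by norm_num]
  exact Nat.Coprime.mul_dvd_of_dvd_of_dvd (by norm_num)
    (Nat.Coprime.mul_dvd_of_dvd_of_dvd (by norm_num) h128 h3) h5

theorem commute_tB_iff {g : G} : g * tB hG e = tB hG e * g ↔ g ∈ centB hG e := by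
  rw [centB_eq, Subgroup.mem_centralizer_singleton_iff]

theorem radB_le : radB hG e ≤ sylB hG e := Subgroup.map_mono (radT_le hG)

theorem gen_mem_normalizer (j : Fin 8) :
    proj e (gT hG j) ∈ Subgroup.normalizer (radB hG e : Set G) := by
  refine Subgroup.mem_normalizer_fintype ?_
  rintro _ ⟨r, hr, rfl⟩
  have hle : radT hG ≤ (radT hG).comap (MulAut.conj (gT hG j)).toMonoidHom := by
    rw [radT, Subgroup.closure_le]
    rintro _ ⟨k, rfl⟩
    exact gT_conj_rad hG j.2 k.2
  exact ⟨_, hle hr, by simp⟩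

theorem centB_le_normalizer : centB hG e ≤ Subgroup.normalizer (radB hG e : Set G) := by
  rw [centB, Subgroup.closure_le]
  rintro _ ⟨j, rfl⟩
  exact gen_mem_normalizer hG e j

theorem centB_le_twoGenerated : centB hG e ≤ Subgroup.closure
    {g : G | g ∈ Subgroup.normalizer (radB hG e : Set G) ∧ ∃ k : ℕ, orderOf g = 2 ^ k} := by
  rw [centB, Subgroup.closure_le]
  rintro _ ⟨j, rfl⟩
  refine Subgroup.subset_closure ⟨gen_mem_normalizer hG e j, ?_⟩
  obtain ⟨k, -, hk⟩ := (Nat.dvd_prime_pow Nat.prime_two (m := 1)).1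
    (orderOf_dvd_of_pow_eq_one (x := proj e (gT hG j))
      (by rw [pow_one, pow_two, ← map_mul, gT_sq hG, map_one]))
  exact ⟨k, hk⟩

theorem mem_radB_of_centralizes {x : G} (hx : IsPGroup 2 (Subgroup.zpowers x))
    (hc : ∀ r ∈ radB hG e, x * r = r * x) : x ∈ radB hG e := by
  haveI : Fact (Nat.Prime 2) := ⟨Nat.prime_two⟩
  have hxH : x ∈ centB hG e := (commute_tB_iff hG e).1 (hc _ ⟨_, tT_mem_rad hG, rfl⟩)
  have hS2 : IsPGroup 2 ↥(sylB hG e) := IsPGroup.of_card (n := 7) (by rw [card_sylB]; norm_num)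
  let P : Sylow 2 ↥(centB hG e) :=
    (hS2.comap_of_injective (centB hG e).subtype Subtype.val_injective).toSylow (by
      have h1 : ((sylB hG e).comap (centB hG e).subtype).index ∣ (sylB hG e).index :=
        Dvd.intro _ (Subgroup.relIndex_mul_index (sylB_le_centB hG e))
      intro h2
      have := h2.trans h1
      rw [sylB_index] at this
      norm_num at this)
  obtain ⟨Q, hQ⟩ :=
    (hx.comap_of_injective (centB hG e).subtype Subtype.val_injective).exists_le_sylow
  obtain ⟨h, hh⟩ := MulAction.exists_smul_eq ↥(centB hG e) P Q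
  have hx' : (⟨x, hxH⟩ : ↥(centB hG e)) ∈ (h • P : Sylow 2 ↥(centB hG e)) := by
    rw [hh]; exact hQ (Subgroup.mem_zpowers x)
  rw [← SetLike.mem_coe, Sylow.coe_smul, Set.mem_smul_set] at hx'
  obtain ⟨s, hs, hse⟩ := hx'
  have hse' : (h : G) * (s : G) * (h : G)⁻¹ = x := congrArg Subtype.val hse
  have hsS : (s : G) ∈ sylB hG e := hs
  have hnorm := centB_le_normalizer hG e h.2
  have hsc : ∀ r ∈ radB hG e, (s : G) * r = r * s := by
    intro r hr
    have h1 := hc _ ((Subgroup.mem_normalizer_iff.1 hnorm r).1 hr)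
    rw [← hse'] at h1
    simp only [mul_assoc, inv_mul_cancel_left] at h1
    have := mul_left_cancel h1
    rw [← mul_assoc, ← mul_assoc] at this
    exact mul_right_cancel this
  rw [← hse']
  refine (Subgroup.mem_normalizer_iff.1 hnorm _).1 ?_
  obtain ⟨s', hs', hse2⟩ := hsS
  refine ⟨s', mem_rad_of_centralizes hG hs' fun r hr => ?_, hse2⟩
  refine proj_inj_syl hG e (mul_mem hs' (radT_le hG hr)) (mul_mem (radT_le hG hr) hs') ?_
  rw [map_mul, map_mul, hse2]
  exact hsc _ ⟨r, hr, rfl⟩

theorem simple_std (S : Sylow 2 G) (hS : (S : Subgroup G) = sylB hG e) :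
    (groupFusionSystem (S : Subgroup G)).IsSimple 2 := by
  haveI : Fact (Nat.Prime 2) := ⟨Nat.prime_two⟩
  have hS1 : (S : Subgroup G) ≠ ⊥ := fun h => by
    rw [hS] at h
    have := card_sylB hG e
    rw [h, Subgroup.card_bot] at this
    norm_num at this
  refine H94.isSimple_groupFusion S hS1 (fun T hT => ?_) ?_
  · -- strongly closed subgroups
    by_cases hT1 : T = ⊥
    · exact Or.inl hT1
    refine Or.inr (le_antisymm hT.1 ?_)
    have hconj : ∀ x ∈ T, ∀ g : G, g * x * g⁻¹ ∈ sylB hG e → g * x * g⁻¹ ∈ T := fun x hx g h =>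
      H94.conj_mem_of_stronglyClosed_group hT hx (hS.symm ▸ h)
    have : (T.subgroupOf (S : Subgroup G)).Normal := ⟨fun n hn g => by
      refine hconj _ hn g ?_
      rw [← hS]
      exact (g * n * g⁻¹).2⟩
    have hne : T.subgroupOf (S : Subgroup G) ≠ ⊥ := fun h => hT1 (by
      rw [Subgroup.subgroupOf_eq_bot] at h
      exact h.eq_bot_of_le hT.1)
    obtain ⟨⟨z, hzT, hzC⟩, hz1⟩ := Subgroup.ne_bot_iff_exists_ne_one.1
      (H24.inf_center_ne_bot S.isPGroup' hne)
    have hz : (z : G) = tB hG e := by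
      refine (center_cases_B hG e (x := (z : G)) (hS ▸ z.2) fun y hy => ?_).resolve_left
        fun h => hz1 (Subtype.ext (Subtype.ext h))
      exact (congrArg Subtype.val (Subgroup.mem_center_iff.1 hzC ⟨y, hS.symm ▸ hy⟩)).symm
    have htT : tB hG e ∈ T := hz ▸ hzT
    rw [hS, sylB_eq, Subgroup.closure_le]
    rintro _ ⟨j, rfl⟩
    have hg : proj e (gT hG j) =
        proj e (elT hG (gwd j))⁻¹ * tB hG e * (proj e (elT hG (gwd j))⁻¹)⁻¹ := by
      rw [map_inv, inv_inv, tB, ← map_inv, ← map_mul, ← map_mul]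
      rfl
    show proj e (gT hG j) ∈ T
    rw [hg]
    exact hconj _ htT _ (hg ▸ ⟨_, gT_mem_sylT hG j.2, rfl⟩)
  · -- the automizer
    intro α hα
    obtain ⟨g, -, hg⟩ := H93.mem_autInducedBy.1 hα
    have hgH : g ∈ centB hG e := by
      rw [← commute_tB_iff]
      have ht : tB hG e ∈ (S : Subgroup G) := hS ▸ tB_mem hG e
      have hgt := hg ⟨_, ht⟩
      have hcomm : ∀ y ∈ sylB hG e, g * tB hG e * g⁻¹ * y = y * (g * tB hG e * g⁻¹) := by
        intro y hy
        obtain ⟨y', hy'⟩ := α.surjective ⟨y, hS.symm ▸ hy⟩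
        have h2 := hg y'
        rw [hy'] at h2
        have hc : tB hG e * (y' : G) = (y' : G) * tB hG e :=
          ((commute_tB_iff hG e).2 (sylB_le_centB hG e (hS ▸ y'.2))).symm
        rw [show y = g * (y' : G) * g⁻¹ from h2]
        calc g * tB hG e * g⁻¹ * (g * (y' : G) * g⁻¹) = g * (tB hG e * y') * g⁻¹ := by group
          _ = g * (y' * tB hG e) * g⁻¹ := by rw [hc]
          _ = _ := by group
      rcases center_cases_B hG e (x := g * tB hG e * g⁻¹) (hS ▸ hgt ▸ (α ⟨_, ht⟩).2) hcomm with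
        h | h
      · refine absurd ?_ (tB_ne_one hG e)
        rwa [mul_inv_eq_one, mul_eq_left] at h
      · exact mul_inv_eq_iff_eq_mul.1 h
    have hR : radB hG e ≤ (S : Subgroup G) := hS ▸ radB_le hG e
    refine Subgroup.mem_iSup_of_mem (radB hG e) (Subgroup.mem_iSup_of_mem ⟨?_, hR, fun Q hQ => ?_⟩
      (H93.mem_autInducedBy.2 ⟨g, centB_le_twoGenerated hG e hgH, hg⟩))
    · refine ⟨hR, fun Q _ => ?_⟩
      refine (Nat.card_le_card_of_injective (Subgroup.inclusion (inf_le_left :
        normalizerIn (S : Subgroup G) Q ≤ S)) (Subgroup.inclusion_injective _)).trans (le_of_eq ?_)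
      rw [normalizerIn, inf_eq_left.2 ((hS ▸ sylB_le_centB hG e :
        (S : Subgroup G) ≤ centB hG e).trans (centB_le_normalizer hG e))]
    · obtain ⟨-, -, a, rfl⟩ := (H93.isConj_groupFusion_iff S).1 hQ
      rintro x ⟨hxS, hxC⟩
      refine H93.mem_map_conj.2 (mem_radB_of_centralizes hG e ?_ fun r hr => ?_)
      · intro y
        obtain ⟨k, hk⟩ := Subgroup.mem_zpowers_iff.1 y.2
        obtain ⟨m, hm⟩ := S.isPGroup' (⟨x, hxS⟩ ^ k)
        refine ⟨m, Subtype.ext ?_⟩
        have hm' := congrArg Subtype.val hm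
        simp only [SubgroupClass.coe_pow, SubgroupClass.coe_zpow, Subgroup.coe_one] at hm'
        rw [SubgroupClass.coe_pow, ← hk, Subgroup.coe_one,
          show a⁻¹ * x * a = MulAut.conj a⁻¹ x by simp [mul_assoc], ← map_zpow, ← map_pow, hm', map_one]
      · have := Subgroup.mem_centralizer_iff.1 hxC (a * r * a⁻¹) ⟨r, hr, rfl⟩
        calc a⁻¹ * x * a * r = a⁻¹ * (x * (a * r * a⁻¹)) * a := by group
          _ = a⁻¹ * ((a * r * a⁻¹) * x) * a := by rw [← this]
          _ = _ := by group

/-- The 2-fusion system of the Janko group `J₃` is simple. -/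
theorem simple_of_equiv (e : G ≃* J3 F ω) (S : Sylow 2 G) :
    (groupFusionSystem (S : Subgroup G)).IsSimple 2 := by
  haveI : Fact (Nat.Prime 2) := ⟨Nat.prime_two⟩
  have hcard : Nat.card ↥(sylB hG e) = 2 ^ 7 := by rw [card_sylB]; norm_num
  let P : Sylow 2 G := (IsPGroup.of_card hcard).toSylow (by rw [sylB_index]; norm_num)
  obtain ⟨g, hg⟩ := MulAction.exists_smul_eq G S P
  set e' : G ≃* J3 F ω := (MulAut.conj g).trans e with he'
  refine simple_std hG e' S ?_
  have hproj : proj e' = (MulAut.conj g⁻¹).toMonoidHom.comp (proj e) := by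
    refine MonoidHom.ext fun w => ?_
    show (MulAut.conj g).symm (proj e w) = _
    rw [MulAut.conj_symm_apply]
    simp
  have hsyl : sylB hG e' = (sylB hG e).map (MulAut.conj g⁻¹).toMonoidHom := by
    rw [sylB, sylB, Subgroup.map_map, hproj]
  rw [hsyl, show sylB hG e = (P : Subgroup G) from rfl, ← hg, Sylow.coe_subgroup_smul]
  ext x
  rw [H93.mem_map_conj, inv_inv, Subgroup.mem_pointwise_smul_iff_inv_smul_mem]
  simp [MulAut.smul_def, mul_assoc]

end Cfsg.Agent.H20.JThreeFusion
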