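import Cfsg.Agent.H20.JThreeFusion.Cert

/-!
The Sylow 2-subgroup and the involution centraliser inside `3·J₃`.

The centraliser of the involution `t` has at most 5760 elements: with `A` the set of `g` conjugating
`t` into the stabiliser `K` of the base line, `A` has at least `153·|C(t)|` elements, and at most
`136·|K|` since `g` maps the base line to one of the 136 lines of the orbit fixed by `t`.
-/

set_option autoImplicit false
set_option linter.style.haveILetI false

namespace Cfsg.Agent.H20.JThreeFusion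

open Cfsg.Spor Matrix Cfsg.Agent.H15.J3 Cfsg.Agent.H16

theorem natListEq_self : ∀ l : List ℕ, natListEq l l = true
  | [] => rfl
  | x :: l => by
    show (Nat.beq x x && natListEq l l) = true
    rw [natListEq_self l, Nat.beq_refl]; rfl

theorem ne_of_natListEq {a b : List ℕ} (h : (!(natListEq a b)) = true) : a ≠ b := by
  rintro rfl
  rw [natListEq_self] at h
  exact absurd h (by simp)

theorem small_append {n : ℕ} {u v : List ℕ} (hu : small n u = true) (hv : small n v = true) :
    small n (u ++ v) = true := by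
  simp only [small, List.all_append, Bool.and_eq_true] at hu hv ⊢
  exact ⟨hu, hv⟩

theorem small_mono {m n : ℕ} (hmn : m ≤ n) {w : List ℕ} (h : small m w = true) : small n w = true := by
  simp only [small, List.all_eq_true, decide_eq_true_eq] at h ⊢
  exact fun x hx => lt_of_lt_of_le (h x hx) hmn

theorem small_invW {w : List ℕ} (h : small 7 w = true) : small 14 (invW w) = true := by
  simp only [small, invW, List.all_eq_true, decide_eq_true_eq, List.mem_map, List.mem_reverse] at h ⊢
  rintro x ⟨y, hy, rfl⟩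
  have := h y hy
  omega

theorem mmF_bound {M N : List ℕ} (hM : M.length = 9) (hN : N.length = 9)
    (hb : ∀ c ∈ M, c < 2 ^ 18) : ∀ c ∈ mmF M N, c < 2 ^ 18 := by
  intro c hc
  rw [mmF_eq hM hN, mm] at hc
  obtain ⟨k, -, rfl⟩ := List.mem_map.1 hc
  exact app_bound hb _

theorem gmat_length {j : ℕ} (hj : j < 8) : (gmat j).length = 9 := gM_length j hj

theorem smat_length {i : ℕ} (hi : i < 128) : (smat i).length = 9 := sM_length i hi

theorem gT_bound : ∀ j < 8, ∀ c ∈ gmat j, c < 2 ^ 18 := by decide +kernel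

section

variable {F : Type*} [Field F] [Fintype F] {ω : F} (hG : Good F ω)

/-- The matrix of an element. -/
abbrev mat (x : ↥(threeJ3 F ω)) : Matrix F9 F9 F := (x.1 : Matrix F9 F9 F)

include hG

theorem toMat_inj {M N : List ℕ} (hM : M.length = 9) (hN : N.length = 9)
    (hMb : ∀ c ∈ M, c < 2 ^ 18) (hNb : ∀ c ∈ N, c < 2 ^ 18) (h : toMat ω M = toMat ω N) : M = N := by
  refine List.ext_getElem (by omega) fun k h1 h2 => ?_
  have hk : k < 9 := hM ▸ h1
  have hb1 := hMb _ (List.getElem_mem h1)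
  have hb2 := hNb _ (List.getElem_mem h2)
  refine val_inj hG hb1 hb2 (funext fun w => ?_)
  have := congrFun (congrFun h w) (pt k)
  rwa [toMat_apply, toMat_apply, idx_pt hk, List.getD_eq_getElem _ _ h1,
    List.getD_eq_getElem _ _ h2] at this

theorem eq_of_mat {x y : ↥(threeJ3 F ω)} {M N : List ℕ} (hx : mat x = toMat ω M)
    (hy : mat y = toMat ω N) (h : natListEq M N = true) : x = y :=
  ext_mat hG (hx.trans ((natListEq_eq h) ▸ hy.symm))

theorem ne_of_mat {x y : ↥(threeJ3 F ω)} {M N : List ℕ} (hx : mat x = toMat ω M)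
    (hy : mat y = toMat ω N) (hM : M.length = 9) (hN : N.length = 9)
    (hMb : ∀ c ∈ M, c < 2 ^ 18) (hNb : ∀ c ∈ N, c < 2 ^ 18) (h : (!(natListEq M N)) = true) :
    x ≠ y := fun e => ne_of_natListEq h (toMat_inj hG hM hN hMb hNb (hx ▸ e ▸ hy))

/-- The seven generators. -/
noncomputable def g7T (j : ℕ) : ↥(threeJ3 F ω) :=
  if h : j < 7 then (exists_el hG (g7_mem_hSet hG h)).choose else 1

theorem mat_g7T {j : ℕ} (h : j < 7) : mat (g7T hG j) = toMat ω (g7 j) := by
  rw [g7T, dif_pos h]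
  exact (exists_el hG (g7_mem_hSet hG h)).choose_spec

/-- Fourteen generators, with the inverses. -/
noncomputable def tblT (j : ℕ) : ↥(threeJ3 F ω) :=
  if j < 7 then g7T hG j else (g7T hG (j - 7))⁻¹

theorem mat_tblT {j : ℕ} (h : j < 14) : mat (tblT hG j) = toMat ω (tbl.getD j []) := by
  have hlen : Cfsg.Agent.H15.J3.Data.gen7.length = 7 := rfl
  unfold tblT tbl
  by_cases h7 : j < 7
  · rw [if_pos h7, mat_g7T hG h7, List.getD_append _ _ _ _ (by omega)]
    rfl
  · rw [if_neg h7, List.getD_append_right _ _ _ _ (by omega), hlen]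
    have hk : j - 7 < 7 := by omega
    have hinv := (inv_ok ⟨j - 7, hk⟩).1
    have e : mat (g7T hG (j - 7)) * toMat ω (Cfsg.Agent.H15.J3.Data.gen7Inv.getD (j - 7) []) = 1 := by
      rw [mat_g7T hG hk, ← toMat_mm hG, hinv, toMat_idM hG]
    show (((g7T hG (j - 7)).1⁻¹ : GL F9 F) : Matrix F9 F9 F) = _
    exact Units.inv_eq_of_mul_eq_one_right e

/-- The element of a word. -/
noncomputable def elT (w : List ℕ) : ↥(threeJ3 F ω) := (w.map (tblT hG)).prod

theorem elT_append (u v : List ℕ) : elT hG (u ++ v) = elT hG u * elT hG v := by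
  simp [elT]

theorem mat_elT : ∀ {w : List ℕ}, small 14 w = true → mat (elT hG w) = toMat ω (evF tbl w)
  | [], _ => by
    rw [show evF tbl [] = idM from rfl, toMat_idM hG]
    simp [elT, mat]
  | j :: w, h => by
    have h' := h
    simp only [small, List.all_cons, Bool.and_eq_true, decide_eq_true_eq] at h'
    rw [show elT hG (j :: w) = tblT hG j * elT hG w by simp [elT]]
    have ih := mat_elT (w := w) (by simp only [small]; exact h'.2)
    show mat (tblT hG j) * mat (elT hG w) = _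
    rw [ih, mat_tblT hG h'.1, ← toMat_mm hG, evF_eq tbl_length (by simp only [small]; exact h'.2),
      evF_eq tbl_length h]
    rfl

theorem elT_invW : ∀ {w : List ℕ}, small 7 w = true → elT hG (invW w) = (elT hG w)⁻¹
  | [], _ => by simp [elT, invW]
  | j :: w, h => by
    simp only [small, List.all_cons, Bool.and_eq_true, decide_eq_true_eq] at h
    rw [show invW (j :: w) = invW w ++ [j + 7] by simp [invW], elT_append,
      elT_invW (w := w) (by simp only [small]; exact h.2),
      show elT hG (j :: w) = tblT hG j * elT hG w by simp [elT], _root_.mul_inv_rev]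
    simp [elT, tblT, h.1]

/-- The central involution. -/
noncomputable def tT : ↥(threeJ3 F ω) := elT hG Data.tW

theorem mat_tT : mat (tT hG) = toMat ω Data.tM := by
  have h := t_ok
  simp only [tOK, Bool.and_eq_true] at h
  rw [tT, mat_elT hG (small_mono (by norm_num) h.1.1.1), natListEq_eq h.1.1.2]

theorem tT_sq : tT hG * tT hG = 1 := by
  have h := t_ok
  simp only [tOK, Bool.and_eq_true] at h
  refine eq_of_mat hG (M := mmF Data.tM Data.tM) ?_ (toMat_idM hG).symm h.1.2
  show mat (tT hG) * mat (tT hG) = _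
  rw [mat_tT, mmF_eq fix_length.2.2.2.2 fix_length.2.2.2.2, toMat_mm hG]

/-- Conjugates of the involution. -/
noncomputable def conjT' (w : List ℕ) : ↥(threeJ3 F ω) := (elT hG w)⁻¹ * tT hG * elT hG w

theorem mat_conjT' {w : List ℕ} (h : small 7 w = true) :
    mat (conjT' hG w) = toMat ω (evF tbl (conjW w)) := by
  have ht : small 7 Data.tW = true := by
    have h := t_ok
    simp only [tOK, Bool.and_eq_true] at h
    exact h.1.1.1
  rw [← mat_elT hG (w := conjW w) (small_append (small_append (small_invW h)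
    (small_mono (by norm_num) ht)) (small_mono (by norm_num) h)), conjW, elT_append, elT_append,
    elT_invW hG h]
  rfl

/-- The eight involutions. -/
noncomputable def gT (j : ℕ) : ↥(threeJ3 F ω) := conjT' hG (gwd j)

theorem gens_spec {j : ℕ} (hj : j < 8) :
    mat (gT hG j) = toMat ω (gmat j) ∧ gT hG j * tT hG = tT hG * gT hG j := by
  have h := gens_ok
  simp only [gensOK, List.all_eq_true, List.mem_range, Bool.and_eq_true] at h
  obtain ⟨⟨h1, h2⟩, h3⟩ := h j hj
  have hm : mat (gT hG j) = toMat ω (gmat j) := by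
    rw [gT, mat_conjT' hG h1, natListEq_eq h2]
  refine ⟨hm, eq_of_mat hG (M := mmF (gmat j) Data.tM) (N := mmF Data.tM (gmat j)) ?_ ?_ h3⟩
  · show mat (gT hG j) * mat (tT hG) = _
    rw [hm, mat_tT, mmF_eq (gmat_length hj) fix_length.2.2.2.2, toMat_mm hG]
  · show mat (tT hG) * mat (gT hG j) = _
    rw [hm, mat_tT, mmF_eq fix_length.2.2.2.2 (gmat_length hj), toMat_mm hG]

theorem gT_sq (j : ℕ) : gT hG j * gT hG j = 1 := by
  rw [gT, conjT', show (elT hG (gwd j))⁻¹ * tT hG * elT hG (gwd j) *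
    ((elT hG (gwd j))⁻¹ * tT hG * elT hG (gwd j)) =
    (elT hG (gwd j))⁻¹ * (tT hG * tT hG) * elT hG (gwd j) by group, tT_sq hG]
  group

/-- The element of a word in the eight involutions. -/
noncomputable def elG (w : List ℕ) : ↥(threeJ3 F ω) := (w.map (gT hG)).prod

theorem mat_elG : ∀ {w : List ℕ}, small 8 w = true → mat (elG hG w) = toMat ω (evF Data.gM w)
  | [], _ => by
    rw [show evF Data.gM [] = idM from rfl, toMat_idM hG]
    simp [elG, mat]
  | j :: w, h => by
    have h' := h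
    simp only [small, List.all_cons, Bool.and_eq_true, decide_eq_true_eq] at h'
    rw [show elG hG (j :: w) = gT hG j * elG hG w by simp [elG]]
    have ih := mat_elG (w := w) (by simp only [small]; exact h'.2)
    show mat (gT hG j) * mat (elG hG w) = _
    rw [ih, (gens_spec hG h'.1).1, ← toMat_mm hG,
      evF_eq gM_length (by simp only [small]; exact h'.2), evF_eq gM_length h]
    rfl

theorem elG_mem {P : Subgroup ↥(threeJ3 F ω)} {w : List ℕ} (h : ∀ j ∈ w, gT hG j ∈ P) :
    elG hG w ∈ P := list_prod_mem (fun x hx => by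
  obtain ⟨j, hj, rfl⟩ := List.mem_map.1 hx
  exact h j hj)

/-- An element of the Sylow subgroup. -/
noncomputable def sT (i : ℕ) : ↥(threeJ3 F ω) := elG hG (swd i)

omit hG in
theorem syl_spec :
    (natListEq (smat Data.oneIdx) idM = true ∧ Data.oneIdx < 128) ∧
    (natListEq (smat Data.tIdx) Data.tM = true ∧ Data.tIdx < 128) ∧
    (∀ i < 128, small 7 (swd i) = true ∧ natListEq (evF Data.gM (swd i)) (smat i) = true ∧
      ∀ j < 7, (Data.sNext.getD i []).getD j 0 < 128 ∧
        natListEq (mmF (smat i) (gmat j)) (smat ((Data.sNext.getD i []).getD j 0)) = true) ∧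
    (∀ i < 128, ∀ c ∈ smat i, c < 2 ^ 18) ∧
    ∀ i < 127, key (smat i) < key (smat (i + 1)) := by
  have h := syl_ok
  simp only [sylOK, Bool.and_eq_true, List.all_eq_true, List.mem_range, Nat.blt_eq] at h
  exact ⟨⟨h.1.1.1.1.1.1, h.1.1.1.1.1.2⟩, ⟨h.1.1.1.1.2, h.1.1.1.2⟩,
    fun i hi => ⟨(h.1.1.2 i hi).1.1, (h.1.1.2 i hi).1.2, (h.1.1.2 i hi).2⟩, h.1.2, h.2⟩

theorem mat_sT {i : ℕ} (hi : i < 128) : mat (sT hG i) = toMat ω (smat i) := by
  rw [sT, mat_elG hG (small_mono (by norm_num) (syl_spec.2.2.1 i hi).1),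
    natListEq_eq (syl_spec.2.2.1 i hi).2.1]

theorem sT_one : sT hG Data.oneIdx = 1 :=
  eq_of_mat hG (mat_sT hG syl_spec.1.2) (toMat_idM hG).symm syl_spec.1.1

theorem sT_t : sT hG Data.tIdx = tT hG :=
  eq_of_mat hG (mat_sT hG syl_spec.2.1.2) (mat_tT hG) syl_spec.2.1.1

theorem mat_sT_mul {i j : ℕ} (hi : i < 128) (hj : j < 8) :
    mat (sT hG i * gT hG j) = toMat ω (mmF (smat i) (gmat j)) ∧
      mat (gT hG j * sT hG i) = toMat ω (mmF (gmat j) (smat i)) := by
  refine ⟨?_, ?_⟩
  · show mat (sT hG i) * mat (gT hG j) = _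
    rw [mat_sT hG hi, (gens_spec hG hj).1, mmF_eq (smat_length hi) (gmat_length hj), toMat_mm hG]
  · show mat (gT hG j) * mat (sT hG i) = _
    rw [mat_sT hG hi, (gens_spec hG hj).1, mmF_eq (gmat_length hj) (smat_length hi), toMat_mm hG]

theorem sT_mul {i j : ℕ} (hi : i < 128) (hj : j < 7) :
    sT hG i * gT hG j = sT hG ((Data.sNext.getD i []).getD j 0) := by
  obtain ⟨hn, he⟩ := (syl_spec.2.2.1 i hi).2.2 j hj
  exact eq_of_mat hG (mat_sT_mul hG hi (by omega)).1 (mat_sT hG hn) he

theorem sT_inj {i j : ℕ} (hi : i < 128) (hj : j < 128) (h : sT hG i = sT hG j) : i = j := by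
  have hk : ∀ {a b : ℕ}, a < b → b < 128 → key (smat a) < key (smat b) := by
    intro a b hab hb
    induction b with
    | zero => omega
    | succ b ih =>
      rcases Nat.lt_or_ge a b with h' | h'
      · exact lt_trans (ih h' (by omega)) (syl_spec.2.2.2.2 b (by omega))
      · obtain rfl : a = b := by omega
        exact syl_spec.2.2.2.2 a (by omega)
  have e : smat i = smat j := toMat_inj hG (smat_length hi) (smat_length hj)
    (syl_spec.2.2.2.1 i hi) (syl_spec.2.2.2.1 j hj) (by rw [← mat_sT hG hi, ← mat_sT hG hj, h])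
  rcases lt_trichotomy i j with c | c | c
  · have := hk c hj; rw [e] at this; omega
  · exact c
  · have := hk c hi; rw [e] at this; omega

/-- The Sylow subgroup. -/
noncomputable def sylT : Subgroup ↥(threeJ3 F ω) :=
  Subgroup.closure (Set.range fun j : Fin 7 => gT hG j)

theorem gT_mem_sylT {j : ℕ} (hj : j < 7) : gT hG j ∈ sylT hG :=
  Subgroup.subset_closure ⟨⟨j, hj⟩, rfl⟩

theorem sT_mem {i : ℕ} (hi : i < 128) : sT hG i ∈ sylT hG := by
  have h := (syl_spec.2.2.1 i hi).1
  simp only [small, List.all_eq_true, decide_eq_true_eq] at h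
  exact elG_mem hG fun j hj => gT_mem_sylT hG (h j hj)

theorem mem_sylT_iff {x : ↥(threeJ3 F ω)} : x ∈ sylT hG ↔ ∃ i < 128, x = sT hG i := by
  refine ⟨fun hx => ?_, fun ⟨i, hi, e⟩ => e ▸ sT_mem hG hi⟩
  haveI : Finite ↥(threeJ3 F ω) := Nat.finite_of_card_ne_zero (by rw [card_threeJ3 hG]; norm_num)
  rw [sylT, ← Subgroup.mem_toSubmonoid, Subgroup.closure_toSubmonoid_of_finite] at hx
  induction hx using Submonoid.closure_induction_right with
  | one => exact ⟨Data.oneIdx, syl_spec.1.2, (sT_one hG).symm⟩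
  | mul_right y _ z hz ih =>
    obtain ⟨i, hi, rfl⟩ := ih
    obtain ⟨j, rfl⟩ := hz
    exact ⟨_, ((syl_spec.2.2.1 i hi).2.2 j j.2).1, sT_mul hG hi j.2⟩

theorem card_sylT : Nat.card ↥(sylT hG) = 128 := by
  refine (Nat.card_eq_of_bijective (fun i : Fin 128 => (⟨sT hG i, sT_mem hG i.2⟩ : ↥(sylT hG)))
    ⟨fun i j h => Fin.ext (sT_inj hG i.2 j.2 (congrArg Subtype.val h)), ?_⟩).symm.trans
    (Nat.card_fin 128)
  rintro ⟨x, hx⟩
  obtain ⟨i, hi, rfl⟩ := (mem_sylT_iff hG).1 hx
  exact ⟨⟨i, hi⟩, rfl⟩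

theorem tT_mem : tT hG ∈ sylT hG := sT_t hG ▸ sT_mem hG syl_spec.2.1.2

theorem center_cases {x : ↥(threeJ3 F ω)} (hx : x ∈ sylT hG)
    (hc : ∀ y ∈ sylT hG, x * y = y * x) : x = 1 ∨ x = tT hG := by
  obtain ⟨i, hi, rfl⟩ := (mem_sylT_iff hG).1 hx
  have h := center_ok
  simp only [centerOK, List.all_eq_true, List.mem_range, Bool.or_eq_true, List.any_eq_true] at h
  rcases h i hi with (h0 | ht) | ⟨j, hj, hd⟩
  · rw [Nat.eq_of_beq_eq_true h0]; exact Or.inl (sT_one hG)
  · rw [Nat.eq_of_beq_eq_true ht]; exact Or.inr (sT_t hG)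
  · have hb1 := mmF_bound (smat_length hi) (gmat_length (j := j) (by omega)) (syl_spec.2.2.2.1 i hi)
    have hb2 := mmF_bound (gmat_length (j := j) (by omega)) (smat_length hi) (gT_bound j (by omega))
    refine absurd (hc _ (gT_mem_sylT hG hj)) (ne_of_mat hG (mat_sT_mul hG hi (by omega)).1
      (mat_sT_mul hG hi (by omega)).2 ?_ ?_ hb1 hb2 hd)
    · rw [mmF_eq (smat_length hi) (gmat_length (by omega)), mm_length]
    · rw [mmF_eq (gmat_length (by omega)) (smat_length hi), mm_length]

/-- The radical subgroup. -/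
noncomputable def radT : Subgroup ↥(threeJ3 F ω) :=
  Subgroup.closure (Set.range fun k : Fin 5 => gT hG k)

theorem radT_le : radT hG ≤ sylT hG := by
  rw [radT, Subgroup.closure_le]
  rintro _ ⟨k, rfl⟩
  exact gT_mem_sylT hG (by omega)

omit hG in
theorem rad_spec :
    (∀ a ∈ Data.radElts, a.1 < 128 ∧ small 5 a.2 = true ∧
      natListEq (evF Data.gM a.2) (smat a.1) = true) ∧
    Data.tIdx ∈ radList ∧
    (∀ c < 8, ∀ k < 5, (Data.radConj.getD c []).getD k 0 ∈ radList ∧
      natListEq (mmF (gmat c) (gmat k))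
        (mmF (smat ((Data.radConj.getD c []).getD k 0)) (gmat c)) = true) ∧
    ∀ i < 128, i ∈ radList ∨
      ∃ k < 5, (!(natListEq (mmF (smat i) (gmat k)) (mmF (gmat k) (smat i)))) = true := by
  have h := rad_ok
  simp only [radOK, Bool.and_eq_true, List.all_eq_true, List.mem_range, Bool.or_eq_true,
    List.any_eq_true, List.contains_iff_mem, Nat.blt_eq] at h
  exact ⟨fun a ha => ⟨(h.1.1.1 a ha).1.1, (h.1.1.1 a ha).1.2, (h.1.1.1 a ha).2⟩, h.1.1.2, h.1.2, h.2⟩

theorem radList_mem {i : ℕ} (hi : i ∈ radList) : i < 128 ∧ sT hG i ∈ radT hG := by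
  obtain ⟨a, ha, rfl⟩ := List.mem_map.1 hi
  obtain ⟨h1, h2, h3⟩ := rad_spec.1 a ha
  refine ⟨h1, ?_⟩
  rw [← eq_of_mat hG (mat_elG hG (small_mono (by norm_num) h2)) (mat_sT hG h1) h3]
  simp only [small, List.all_eq_true, decide_eq_true_eq] at h2
  exact elG_mem hG fun j hj => Subgroup.subset_closure ⟨⟨j, h2 j hj⟩, rfl⟩

theorem tT_mem_rad : tT hG ∈ radT hG := sT_t hG ▸ (radList_mem hG rad_spec.2.1).2

theorem gT_conj_rad {c k : ℕ} (hc : c < 8) (hk : k < 5) :
    gT hG c * gT hG k * (gT hG c)⁻¹ ∈ radT hG := by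
  obtain ⟨hm, he⟩ := rad_spec.2.2.1 c hc k hk
  obtain ⟨hlt, hmem⟩ := radList_mem hG hm
  have e : gT hG c * gT hG k = sT hG ((Data.radConj.getD c []).getD k 0) * gT hG c := by
    refine eq_of_mat hG ?_ (mat_sT_mul hG hlt hc).1 he
    show mat (gT hG c) * mat (gT hG k) = _
    rw [(gens_spec hG hc).1, (gens_spec hG (show k < 8 by omega)).1,
      mmF_eq (gmat_length hc) (gmat_length (by omega)), toMat_mm hG]
  rw [e, mul_inv_cancel_right]
  exact hmem

theorem mem_rad_of_centralizes {x : ↥(threeJ3 F ω)} (hx : x ∈ sylT hG)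
    (hc : ∀ r ∈ radT hG, x * r = r * x) : x ∈ radT hG := by
  obtain ⟨i, hi, rfl⟩ := (mem_sylT_iff hG).1 hx
  rcases rad_spec.2.2.2 i hi with h | ⟨k, hk, hd⟩
  · exact (radList_mem hG h).2
  · have hb1 := mmF_bound (smat_length hi) (gmat_length (j := k) (by omega)) (syl_spec.2.2.2.1 i hi)
    have hb2 := mmF_bound (gmat_length (j := k) (by omega)) (smat_length hi) (gT_bound k (by omega))
    refine absurd (hc _ (Subgroup.subset_closure ⟨⟨k, hk⟩, rfl⟩)) (ne_of_mat hG
      (mat_sT_mul hG hi (by omega)).1 (mat_sT_mul hG hi (by omega)).2 ?_ ?_ hb1 hb2 hd)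
    · rw [mmF_eq (smat_length hi) (gmat_length (by omega)), mm_length]
    · rw [mmF_eq (gmat_length (by omega)) (smat_length hi), mm_length]

theorem scal_mem (e : ℕ) : ∃ z ∈ Subgroup.center ↥(threeJ3 F ω),
    mat z = toMat ω (scal e) := by
  have hw : small 14 (List.replicate e 3) = true := by
    simp only [small, List.all_eq_true, decide_eq_true_eq, List.mem_replicate]
    rintro x ⟨-, rfl⟩
    norm_num
  refine ⟨elT hG (List.replicate e 3), ?_, mat_elT hG hw⟩
  rw [elT, List.map_replicate, List.prod_replicate]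
  refine Subgroup.pow_mem _ (mem_center_of_scalar hG (c := ω) ?_) e
  rw [show tblT hG 3 = g7T hG 3 from if_pos (by norm_num)]
  show mat (g7T hG 3) = _
  rw [mat_g7T hG (by norm_num), g7_three hG]

theorem center_eq_scal {z : ↥(threeJ3 F ω)} (hz : z ∈ Subgroup.center ↥(threeJ3 F ω)) :
    ∃ e < 3, mat z = toMat ω (scal e) := by
  obtain ⟨c, hc, he⟩ := center_scalar hG hz
  have hF : ∀ d : F, d ≠ 0 → d = 1 ∨ d = ω ∨ d = ω * ω := by
    intro d hd
    obtain ⟨k, -, e⟩ := val_surj hG (fun _ => d)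
    have := congrFun e (pt 0)
    simp only [val] at this
    rw [← this] at hd ⊢
    have hs := w_sq hG
    generalize k.testBit (idx (pt 0)) = a at hd ⊢
    generalize k.testBit (9 + idx (pt 0)) = b at hd ⊢
    cases a <;> cases b <;> simp [cf, hs, add_comm] at hd ⊢
  have h1 : toMat ω (scal 1) = ω • (1 : Matrix F9 F9 F) := by
    rw [scal, evF_eq tbl_length (by decide), show List.replicate 1 3 = [3] from rfl]
    show toMat ω (mm (g7 3) idM) = _
    rw [toMat_mm hG, toMat_idM hG, mul_one, g7_three hG]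
  rcases hF c hc with rfl | rfl | rfl
  · exact ⟨0, by norm_num, by
      rw [show scal 0 = idM from rfl, toMat_idM hG]; exact he.trans (one_smul _ _)⟩
  · exact ⟨1, by norm_num, by rw [h1]; exact he⟩
  · refine ⟨2, by norm_num, ?_⟩
    rw [scal, evF_eq tbl_length (by decide), show List.replicate 2 3 = [3, 3] from rfl]
    show mat z = toMat ω (mm (g7 3) (mm (g7 3) idM))
    rw [toMat_mm hG, toMat_mm hG, toMat_idM hG, mul_one, g7_three hG, smul_mul_assoc, one_mul,
      smul_smul]
    exact he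

theorem pow_spec {n : ℕ} {a : List ℕ × ℕ} (h : powOK n a = true) :
    (∀ j ∈ a.1, j < 8) ∧ elG hG a.1 ^ n ∈ Subgroup.center ↥(threeJ3 F ω) ∧
      elG hG a.1 ∉ Subgroup.center ↥(threeJ3 F ω) := by
  simp only [powOK, Bool.and_eq_true, List.all_eq_true, List.mem_range, Nat.blt_eq] at h
  obtain ⟨⟨⟨⟨h1, -⟩, h3⟩, h4⟩, h5⟩ := h
  have hs : ∀ j ∈ a.1, j < 8 := by simpa [small] using h1
  refine ⟨hs, ?_, fun hz => ?_⟩
  · obtain ⟨z, hz, he⟩ := scal_mem hG a.2
    have hpow : ∀ m : ℕ, elG hG a.1 ^ m = elG hG (List.replicate m a.1).flatten := by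
      intro m
      induction m with
      | zero => simp [elG]
      | succ m ih =>
        rw [pow_succ', List.replicate_succ, List.flatten_cons, ih]
        simp [elG]
    rw [hpow, eq_of_mat hG (mat_elG hG ?_) he h3]
    · exact hz
    · simp only [small, List.all_eq_true, decide_eq_true_eq, List.mem_flatten, List.mem_replicate]
      rintro j ⟨l, ⟨-, rfl⟩, hj⟩
      exact hs j hj
  · obtain ⟨e, he3, he⟩ := center_eq_scal hG hz
    have hlen : ∀ e, (scal e).length = 9 := by
      intro e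
      rw [scal, evF_eq tbl_length (n := 14) (by
        simp only [small, List.all_eq_true, decide_eq_true_eq, List.mem_replicate]
        rintro x ⟨-, rfl⟩
        norm_num)]
      exact ev_length _ _
    exact ne_of_mat hG (mat_elG hG h1) he (by rw [evF_eq gM_length h1]; exact ev_length _ _)
      (hlen e) h4 (h5 e he3).2 (h5 e he3).1 rfl

omit hG in
theorem spanStep_spec {c : ℕ} {L : List ℕ} {x : ℕ} (hx : x ∈ L) (a b : Bool) :
    x ^^^ pick a b c ∈ spanStep c L := by
  unfold spanStep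
  cases hc : Nat.beq c 0
  · simp only [forceNat_eq, mwF_eq, List.mem_flatMap]
    refine ⟨x, hx, ?_⟩
    cases a <;> cases b <;> simp [pick, Nat.xor_assoc] <;> simp
  · have : c = 0 := Nat.eq_of_beq_eq_true hc
    subst this
    have hp : pick a b 0 = 0 := by cases a <;> cases b <;> rfl
    simpa [hp] using hx

omit hG in
theorem appN_mem_span (M : List ℕ) (v : ℕ) : ∀ n, appN M v n ∈ spanN M n
  | 0 => by simp [spanN, appN]
  | n + 1 => spanStep_spec (appN_mem_span M v n) _ _

theorem toMat_zipXor {X Y : List ℕ} (hX : X.length = 9) (hY : Y.length = 9) :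
    toMat ω (List.zipWith Nat.xor X Y) = toMat ω X + toMat ω Y := by
  ext w z
  have hz := idx_lt z
  rw [Matrix.add_apply, toMat_apply, toMat_apply, toMat_apply, ← Pi.add_apply, ← val_xor hG,
    List.getD_eq_getElem _ _ (by simp [hX, hY]; omega), List.getD_eq_getElem _ _ (by omega),
    List.getD_eq_getElem _ _ (by omega), List.getElem_zipWith]
  rfl

/-- A fixed vector of the involution is a fixed line of the list when it is in the orbit. -/
theorem fixed_line {v : ℕ} (hv : v < 2 ^ 18) (h0 : v ≠ 0)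
    (hfix : toMat ω Data.tM *ᵥ val ω v = val ω v) (hlab : lab (Cfsg.Agent.H15.J3.norm v) = 1) :
    Cfsg.Agent.H15.J3.norm v ∈ Data.fixLines := by
  have h := fix_ok
  simp only [fixOK, Bool.and_eq_true, List.all_eq_true] at h
  obtain ⟨⟨h1, -⟩, h3⟩ := h
  obtain ⟨lB, lC, lD, lN, lT⟩ := fix_length
  have hN : toMat ω nMat *ᵥ val ω v = 0 := by
    rw [nMat, toMat_zipXor hG lT (by rfl), toMat_idM hG, Matrix.add_mulVec, hfix, one_mulVec]
    funext z
    exact add_self hG _
  have hId := congrArg (toMat ω) (natListEq_eq h1)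
  rw [mmF_eq lB lC, mmF_eq lD lN, toMat_zipXor hG (mm_length _ _) (mm_length _ _), toMat_mm hG,
    toMat_mm hG, toMat_idM hG] at hId
  have hB : val ω v = toMat ω Data.fixB *ᵥ val ω (app Data.fixC v) := by
    conv_lhs => rw [← one_mulVec (val ω v), ← hId]
    rw [Matrix.add_mulVec, ← mulVec_mulVec, ← mulVec_mulVec, hN, mulVec_zero, add_zero, val_app hG]
  have hBb : ∀ c ∈ Data.fixB, c < 2 ^ 18 := by decide +kernel
  have he : v = app Data.fixB (app Data.fixC v) :=
    val_inj hG hv (app_bound hBb _) (hB.trans (val_app hG _ _).symm)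
  have hmem : v ∈ spanN Data.fixB 9 := by
    rw [he]; exact appN_mem_span _ _ 9
  have := h3 v hmem
  rw [forceNat_eq, normF_eq, Bool.or_eq_true, Bool.or_eq_true, Bool.not_eq_true',
    List.contains_iff_mem] at this
  rcases this with (hz | hl) | hm
  · obtain ⟨c, hc, e⟩ := exists_smul_norm hG v
    rw [Nat.eq_of_beq_eq_true hz, val_zero] at e
    exact absurd ((smul_eq_zero.1 e.symm).resolve_left hc) (val_ne_zero hG hv h0)
  · rw [show elab3 (entry (Cfsg.Agent.H15.J3.norm v)) = 1 from hlab] at hl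
    exact absurd hl (by decide)
  · exact hm

omit hG in
theorem kInv_spec :
    (∀ a ∈ Data.kInv, a.1 < 6480 ∧ small 7 a.2 = true ∧
      natListEq (evF tbl (conjW a.2)) (kCodeF a.1) = true ∧ ∀ c ∈ kCodeF a.1, c < 2 ^ 18) ∧
    Data.kInv.length = 153 ∧
    ∀ i < 152, (Data.kInv.getD i (0, [])).1 < (Data.kInv.getD (i + 1) (0, [])).1 := by
  have h := kInv_ok
  simp only [kInvOK, kOKAt, Bool.and_eq_true, List.all_eq_true, List.mem_range, Nat.blt_eq] at h
  exact ⟨fun a ha => ⟨(h.1.1 a ha).1.1.1, (h.1.1 a ha).1.1.2, (h.1.1 a ha).1.2, (h.1.1 a ha).2⟩,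
    (by decide +kernel), h.2⟩

/-- The elements carrying the involution into the stabiliser of the base line. -/
def intoK : Set ↥(threeJ3 F ω) := {g | g⁻¹ * tT hG * g ∈ kGroup F ω hG}

theorem line_of_intoK {g : ↥(threeJ3 F ω)} (hg : g ∈ intoK hG) :
    ∃ v ∈ Data.fixLines, ∃ c : F, c ≠ 0 ∧ mat g *ᵥ val ω 1 = c • val ω v := by
  obtain ⟨b, hb, eb⟩ := kSet_line hG hg
  have eb' : mat (g⁻¹ * tT hG * g) *ᵥ val ω 1 = b • val ω 1 := eb
  have e1 : mat (tT hG) *ᵥ (mat g *ᵥ val ω 1) = b • (mat g *ᵥ val ω 1) := by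
    rw [← mulVec_smul]
    refine .trans ?_ (congrArg (fun u => mat g *ᵥ u) eb')
    rw [mulVec_mulVec, mulVec_mulVec]
    congr 1
    show mat (tT hG * g) = mat (g * (g⁻¹ * tT hG * g))
    congr 1
    group
  have hne : mat g *ᵥ val ω 1 ≠ 0 := fun h =>
    val_ne_zero hG (by norm_num : 1 < 2 ^ 18) one_ne_zero
      ((mulVec_injective_iff_isUnit.2 g.1.isUnit) (by rw [mulVec_zero]; exact h))
  have e2 : mat g *ᵥ val ω 1 = (b * b) • (mat g *ᵥ val ω 1) := by
    have h1 : mat (tT hG) * mat (tT hG) = 1 := by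
      show mat (tT hG * tT hG) = _
      rw [tT_sq hG]; rfl
    conv_lhs => rw [← one_mulVec (mat g *ᵥ val ω 1), ← h1]
    rw [← mulVec_mulVec, e1, mulVec_smul, e1, smul_smul]
  have hb1 : b = 1 := by
    have hbb : b * b = 1 := by
      by_contra h'
      have : (b * b - 1) • (mat g *ᵥ val ω 1) = 0 := by
        rw [sub_smul, one_smul, ← e2, sub_self]
      exact hne ((smul_eq_zero.1 this).resolve_left (sub_ne_zero.2 h'))
    have h2 := two_zero hG
    have : (b + 1) * (b + 1) = 0 := by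
      calc (b + 1) * (b + 1) = b * b + 2 * b + 1 := by ring
        _ = 0 := by rw [hbb, h2, zero_mul, add_zero]; exact add_self hG 1
    have h3 := mul_self_eq_zero.1 this
    calc b = b + (1 + 1) := by rw [add_self hG 1, add_zero]
      _ = (b + 1) + 1 := by ring
      _ = 1 := by rw [h3, zero_add]
  obtain ⟨u, hu, eu⟩ := val_surj hG (mat g *ᵥ val ω 1)
  have hu0 : u ≠ 0 := fun h => hne (by rw [← eu, h, val_zero])
  obtain ⟨c, hc, ec⟩ := exists_smul_norm hG u
  have hn0 : Cfsg.Agent.H15.J3.norm u ≠ 0 := fun h => by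
    rw [h, val_zero] at ec
    exact val_ne_zero hG hu hu0 ((smul_eq_zero.1 ec.symm).resolve_left hc)
  have hlab : lab (Cfsg.Agent.H15.J3.norm u) = 1 :=
    (lab_eq_one_iff hG (norm_lt hG hu) hn0 (norm_idem hG hu)).2
      ⟨g.1, g.2, c, hc, by rw [ec, eu]⟩
  refine ⟨_, fixed_line hG hu hu0 ?_ hlab, c⁻¹, inv_ne_zero hc, ?_⟩
  · rw [eu, ← mat_tT hG, e1, hb1, one_smul]
  · rw [ec, smul_smul, inv_mul_cancel₀ hc, one_smul, eu]

theorem kGroup_card_le : Nat.card ↥(kGroup F ω hG) ≤ 6480 := by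
  haveI : Finite ↥(threeJ3 F ω) := Nat.finite_of_card_ne_zero (by rw [card_threeJ3 hG]; norm_num)
  have hk : ∀ x : ↥(kGroup F ω hG), ∃ a < 81, ∃ n < 80,
      mat (x : ↥(threeJ3 F ω)) = toMat ω (dgc a) * toMat ω (rrc n) := fun x => x.2
  choose a ha n hn e using hk
  let f : ↥(kGroup F ω hG) → Fin 6480 := fun x =>
    ⟨a x * 80 + n x, by have := ha x; have := hn x; omega⟩
  have hf : Function.Injective f := by
    intro x y h
    have h' : a x * 80 + n x = a y * 80 + n y := congrArg Fin.val h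
    have h1 := hn x
    have h2 := hn y
    have ea : a x = a y := by omega
    have en : n x = n y := by omega
    exact Subtype.ext (ext_mat hG ((e x).trans ((e y).trans (by rw [ea, en])).symm))
  exact (Nat.card_le_card_of_injective f hf).trans (Nat.card_fin 6480).le

/-- The centraliser of the involution has at most 5760 elements. -/
theorem card_centralizer_le :
    Nat.card ↥(Subgroup.centralizer ({tT hG} : Set ↥(threeJ3 F ω))) ≤ 5760 := by
  haveI : Finite ↥(threeJ3 F ω) := Nat.finite_of_card_ne_zero (by rw [card_threeJ3 hG]; norm_num)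
  set C := Subgroup.centralizer ({tT hG} : Set ↥(threeJ3 F ω)) with hC
  have hlen := kInv_spec.2.1
  let ka : Fin 153 → ℕ × List ℕ := fun i => Data.kInv.getD i.1 (0, [])
  have hka : ∀ i, ka i ∈ Data.kInv := fun i => by
    show Data.kInv.getD i.1 (0, []) ∈ _
    rw [List.getD_eq_getElem _ _ (by omega)]
    exact List.getElem_mem _
  have hkmat : ∀ i, mat (conjT' hG (ka i).2) = toMat ω (kCodeF (ka i).1) := fun i => by
    obtain ⟨-, h2, h3, -⟩ := kInv_spec.1 _ (hka i)
    rw [mat_conjT' hG h2, natListEq_eq h3]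
  have hin : ∀ (c : ↥C) (i : Fin 153), (c : ↥(threeJ3 F ω)) * elT hG (ka i).2 ∈ intoK hG := by
    intro c i
    have hc := Subgroup.mem_centralizer_singleton_iff.1 c.2
    show ((c : ↥(threeJ3 F ω)) * elT hG (ka i).2)⁻¹ * tT hG * (c * elT hG (ka i).2) ∈ kGroup F ω hG
    rw [show ((c : ↥(threeJ3 F ω)) * elT hG (ka i).2)⁻¹ * tT hG * (c * elT hG (ka i).2) =
      (elT hG (ka i).2)⁻¹ * ((c : ↥(threeJ3 F ω))⁻¹ * (tT hG * c)) * elT hG (ka i).2 by group,
      ← hc, inv_mul_cancel_left]
    show mat (conjT' hG (ka i).2) ∈ kSet F ω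
    rw [hkmat, kCodeF_eq (kInv_spec.1 _ (hka i)).1]
    exact kCode_mem hG (kInv_spec.1 _ (hka i)).1
  have hinj : Function.Injective
      (fun p : ↥C × Fin 153 => (⟨_, hin p.1 p.2⟩ : ↥(intoK hG))) := by
    rintro ⟨c, i⟩ ⟨d, j⟩ h
    have h' : (c : ↥(threeJ3 F ω)) * elT hG (ka i).2 = d * elT hG (ka j).2 := congrArg Subtype.val h
    have hconj : conjT' hG (ka i).2 = conjT' hG (ka j).2 := by
      have key : ∀ (e : ↥C) (w : List ℕ), conjT' hG w =
          ((e : ↥(threeJ3 F ω)) * elT hG w)⁻¹ * tT hG * (e * elT hG w) := by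
        intro e w
        have he := Subgroup.mem_centralizer_singleton_iff.1 e.2
        rw [show ((e : ↥(threeJ3 F ω)) * elT hG w)⁻¹ * tT hG * (e * elT hG w) =
          (elT hG w)⁻¹ * ((e : ↥(threeJ3 F ω))⁻¹ * (tT hG * e)) * elT hG w by group, ← he,
          inv_mul_cancel_left]
        rfl
      rw [key c, key d, h']
    have hk : (ka i).1 = (ka j).1 := by
      obtain ⟨hi1, -, -, hib⟩ := kInv_spec.1 _ (hka i)
      obtain ⟨hj1, -, -, hjb⟩ := kInv_spec.1 _ (hka j)
      refine kCode_inj hG hi1 hj1 ?_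
      rw [← kCodeF_eq hi1, ← kCodeF_eq hj1, ← hkmat, ← hkmat, hconj]
    have hij : i = j := by
      have hlt : ∀ {a b : ℕ}, a < b → b < 153 →
          (Data.kInv.getD a (0, [])).1 < (Data.kInv.getD b (0, [])).1 := by
        intro a b hab hb
        induction b with
        | zero => omega
        | succ b ih =>
          rcases Nat.lt_or_ge a b with h' | h'
          · exact lt_trans (ih h' (by omega)) (kInv_spec.2.2 b (by omega))
          · obtain rfl : a = b := by omega
            exact kInv_spec.2.2 a (by omega)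
      rcases lt_trichotomy i.1 j.1 with c' | c' | c'
      · exact absurd hk (hlt c' j.2).ne
      · exact Fin.ext c'
      · exact absurd hk (hlt c' i.2).ne'
    subst hij
    exact Prod.ext (Subtype.ext (mul_right_cancel h')) rfl
  have h1 := Nat.card_le_card_of_injective _ hinj
  rw [Nat.card_prod, Nat.card_fin] at h1
  have h2 : Nat.card ↥(intoK hG) ≤ 136 * 6480 := by
    classical
    let ln : ↥(intoK hG) → Fin 136 := fun g =>
      ⟨Data.fixLines.idxOf (line_of_intoK hG g.2).choose, by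
        have := List.idxOf_lt_length_iff.2 (line_of_intoK hG g.2).choose_spec.1
        have h := fix_ok
        simp only [fixOK, Bool.and_eq_true] at h
        rwa [Nat.eq_of_beq_eq_true h.1.2] at this⟩
    have hfib : ∀ g g' : ↥(intoK hG), ln g = ln g' →
        (g' : ↥(threeJ3 F ω))⁻¹ * g ∈ kGroup F ω hG := by
      intro g g' h
      obtain ⟨hv, c, hc, e⟩ := (line_of_intoK hG g.2).choose_spec
      obtain ⟨hv', c', hc', e'⟩ := (line_of_intoK hG g'.2).choose_spec
      have hvv : (line_of_intoK hG g.2).choose = (line_of_intoK hG g'.2).choose :=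
        (List.idxOf_inj hv).1 (congrArg Fin.val h)
      rw [hvv] at e
      refine mem_kSet_of_fix hG ((g' : ↥(threeJ3 F ω))⁻¹ * (g : ↥(threeJ3 F ω))).2 (mul_ne_zero hc (inv_ne_zero hc')) ?_
      show mat ((g' : ↥(threeJ3 F ω))⁻¹ * (g : ↥(threeJ3 F ω))) *ᵥ val ω 1 = _
      have hinv : mat (g' : ↥(threeJ3 F ω))⁻¹ * mat (g' : ↥(threeJ3 F ω)) = 1 := by
        show mat ((g' : ↥(threeJ3 F ω))⁻¹ * (g' : ↥(threeJ3 F ω))) = _
        rw [inv_mul_cancel]; rfl
      show (mat (g' : ↥(threeJ3 F ω))⁻¹ * mat (g : ↥(threeJ3 F ω))) *ᵥ val ω 1 = _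
      rw [← mulVec_mulVec, e, show c = c * c'⁻¹ * c' by rw [inv_mul_cancel_right₀ hc'], mul_smul,
        ← e', mulVec_smul, mulVec_mulVec, hinv, one_mulVec, inv_mul_cancel_right₀ hc']
    let rep : Fin 136 → ↥(threeJ3 F ω) := fun a =>
      if h : ∃ g : ↥(intoK hG), ln g = a then (h.choose : ↥(threeJ3 F ω)) else 1
    have hrep : ∀ g : ↥(intoK hG),
        (rep (ln g))⁻¹ * (g : ↥(threeJ3 F ω)) ∈ kGroup F ω hG := by
      intro g
      have hex : ∃ g' : ↥(intoK hG), ln g' = ln g := ⟨g, rfl⟩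
      simp only [rep, dif_pos hex]
      exact hfib g _ hex.choose_spec.symm
    refine (Nat.card_le_card_of_injective
      (fun g : ↥(intoK hG) => ((ln g, ⟨_, hrep g⟩) : Fin 136 × ↥(kGroup F ω hG))) ?_).trans ?_
    · intro g g' h
      obtain ⟨h1, h2⟩ := Prod.ext_iff.1 h
      have h2' := congrArg Subtype.val h2
      simp only at h1 h2'
      rw [h1] at h2'
      exact Subtype.ext (mul_left_cancel h2')
    · rw [Nat.card_prod, Nat.card_fin]
      exact Nat.mul_le_mul_left _ (kGroup_card_le hG)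
  have h3 := h1.trans h2
  omega

end

end Cfsg.Agent.H20.JThreeFusion
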